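import Mathlib.Algebra.BigOperators.Group.Finset.Piecewise
import Mathlib.Algebra.Order.BigOperators.Ring.Finset
import Mathlib.Tactic.Ring
import Mathlib.Tactic.Linarith

/-!
# Integral vectors with Gram matrix `e J + I`

If `m` integral vectors with Gram matrix `e J + I` have no common zero coordinate among at least `e + m`
coordinates, then they consist of `e` constant signed coordinates and one further signed coordinate for
each vector.  A positive vector orthogonal to all of them makes the latter signs equal.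
-/

set_option autoImplicit false

namespace Cfsg.Agent.H57.Cyclic

variable {ι : Type*} [Fintype ι] [DecidableEq ι]

omit [DecidableEq ι] in
/-- The quadratic form of the inverse Gram matrix is at least the rank on nonzero integral vectors, with
equality for constant sign vectors and signed unit vectors only. -/
theorem row_form (r : ι → ℤ) (hr : ∃ i, r i ≠ 0) :
    2 * (Fintype.card ι : ℤ) ≤ 2 * ∑ i, r i * r i + ∑ i, ∑ j, (r i - r j) * (r i - r j) ∧
    (2 * ∑ i, r i * r i + ∑ i, ∑ j, (r i - r j) * (r i - r j) = 2 * (Fintype.card ι : ℤ) →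
      (∃ i, (r i = 1 ∨ r i = -1) ∧ ∀ j, j ≠ i → r j = 0) ∨
        ∃ s : ℤ, (s = 1 ∨ s = -1) ∧ ∀ i, r i = s) := by
  set N := Finset.univ.filter fun i => r i ≠ 0 with hN
  set Z := Finset.univ.filter fun i => r i = 0 with hZ
  set A := ∑ i, r i * r i with hA
  set B := ∑ i, ∑ j, (r i - r j) * (r i - r j) with hB
  have hm : (Z.card : ℤ) + N.card = Fintype.card ι := by
    have := Finset.card_filter_add_card_filter_not (s := (Finset.univ : Finset ι)) (fun i => r i = 0)
    rw [Finset.card_univ] at this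
    exact_mod_cast this
  have hB' : 2 * (Z.card : ℤ) * A ≤ B := by
    have h1 : ∀ i j, (if r j = 0 then r i * r i else 0) + (if r i = 0 then r j * r j else 0) ≤
        (r i - r j) * (r i - r j) := fun i j => by
      split_ifs with h2 h3 h3 <;> simp [*]
      all_goals nlinarith
    refine le_trans (le_of_eq ?_) (Finset.sum_le_sum fun i _ => Finset.sum_le_sum fun j _ => h1 i j)
    rw [Finset.sum_congr rfl fun i _ => Finset.sum_add_distrib, Finset.sum_add_distrib]
    have e1 : ∑ i, ∑ j, (if r j = 0 then r i * r i else 0) = (Z.card : ℤ) * A := by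
      rw [Finset.mul_sum]
      refine Finset.sum_congr rfl fun i _ => ?_
      rw [← Finset.sum_filter, Finset.sum_const, nsmul_eq_mul]
    have e2 : ∑ i, ∑ j, (if r i = 0 then r j * r j else 0) = (Z.card : ℤ) * A := by
      rw [Finset.sum_comm, e1]
    rw [e1, e2]
    ring
  have hsplit : A = ∑ i ∈ N, r i * r i := by
    rw [hA, hN, Finset.sum_filter]
    refine Finset.sum_congr rfl fun i _ => ?_
    split_ifs with h
    · rfl
    · simp [not_not.1 h]
  have hone : ∀ i ∈ N, 1 ≤ r i * r i := fun i hi => by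
    have := mul_self_pos.2 (Finset.mem_filter.1 hi).2
    omega
  have hA1 : (N.card : ℤ) ≤ A := by
    rw [hsplit]
    refine le_trans (le_of_eq ?_) (Finset.sum_le_sum hone)
    simp
  have hN0 : 1 ≤ (N.card : ℤ) := by
    obtain ⟨i, hi⟩ := hr
    exact_mod_cast Finset.card_pos.2 ⟨i, Finset.mem_filter.2 ⟨Finset.mem_univ _, hi⟩⟩
  have hmul : (Z.card : ℤ) * 1 ≤ (Z.card : ℤ) * N.card :=
    mul_le_mul_of_nonneg_left hN0 (Int.natCast_nonneg _)
  have hmul' : (Z.card : ℤ) * N.card ≤ (Z.card : ℤ) * A :=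
    mul_le_mul_of_nonneg_left hA1 (Int.natCast_nonneg _)
  refine ⟨by linarith, fun heq => ?_⟩
  have hAN : A = N.card := le_antisymm (by linarith) hA1
  have habs : ∀ i ∈ N, r i = 1 ∨ r i = -1 := fun i hi => mul_self_eq_one_iff.1
    ((Finset.sum_eq_sum_iff_of_le hone).1 (by rw [← hsplit, hAN]; simp) i hi).symm
  rcases Z.eq_empty_or_nonempty with hz | ⟨z, hz⟩
  · right
    have hall : ∀ i, i ∈ N := fun i => Finset.mem_filter.2 ⟨Finset.mem_univ _, fun h =>
      Finset.notMem_empty i (hz ▸ Finset.mem_filter.2 ⟨Finset.mem_univ _, h⟩ : i ∈ (∅ : Finset ι))⟩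
    have hB0 : B = 0 := by
      rw [hz, Finset.card_empty, Nat.cast_zero] at hm
      rw [hAN] at heq
      linarith
    obtain ⟨i₀, -⟩ := hr
    refine ⟨r i₀, habs i₀ (hall i₀), fun i => ?_⟩
    have h1 := (Finset.sum_eq_zero_iff_of_nonneg fun a _ => Finset.sum_nonneg fun b _ =>
      mul_self_nonneg (r a - r b)).1 hB0 i (Finset.mem_univ _)
    have h2 := (Finset.sum_eq_zero_iff_of_nonneg fun b _ => mul_self_nonneg (r i - r b)).1 h1 i₀
      (Finset.mem_univ _)
    exact sub_eq_zero.1 (mul_self_eq_zero.1 h2)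
  · left
    have hz1 : 1 ≤ (Z.card : ℤ) := by exact_mod_cast Finset.card_pos.2 ⟨z, hz⟩
    have hN1 : (N.card : ℤ) = 1 := by nlinarith
    obtain ⟨i, hi⟩ := Finset.card_eq_one.1 (by exact_mod_cast hN1 : N.card = 1)
    refine ⟨i, habs i (hi ▸ Finset.mem_singleton_self i), fun j hj => ?_⟩
    by_contra h
    have : j ∈ N := Finset.mem_filter.2 ⟨Finset.mem_univ _, h⟩
    rw [hi, Finset.mem_singleton] at this
    exact hj this

variable {κ : Type*} [DecidableEq κ] [Nonempty ι]

/-- The structure of integral vectors with Gram matrix `e J + I`. -/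
theorem gram_structure {e : ℕ} (S : Finset κ) (x : ι → κ → ℤ)
    (hgram : ∀ i j, ∑ c ∈ S, x i c * x j c = (e : ℤ) + if i = j then 1 else 0)
    (hnz : ∀ c ∈ S, ∃ i, x i c ≠ 0) (hcard : e + Fintype.card ι ≤ S.card)
    (w : κ → ℤ) (hw : ∀ c ∈ S, 0 < w c) (horth : ∀ i, ∑ c ∈ S, w c * x i c = 0) :
    S.card = e + Fintype.card ι ∧
    ∃ (a : ι → κ) (s : κ → ℤ) (s₀ : ℤ), Function.Injective a ∧ (∀ i, a i ∈ S) ∧
      (S \ Finset.univ.image a).card = e ∧ (s₀ = 1 ∨ s₀ = -1) ∧
      (∀ c ∈ S \ Finset.univ.image a, (s c = 1 ∨ s c = -1) ∧ ∀ i, x i c = s c) ∧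
      ∀ i j, x i (a j) = if i = j then s₀ else 0 := by
  set m := Fintype.card ι with hm
  have hm1 : 0 < m := Fintype.card_pos
  -- the form summed over the coordinates
  have htot : ∑ c ∈ S, (2 * ∑ i, x i c * x i c + ∑ i, ∑ j, (x i c - x j c) * (x i c - x j c)) =
      2 * (m : ℤ) * ((e : ℤ) + m) := by
    have h1 : ∀ i j, ∑ c ∈ S, (x i c - x j c) * (x i c - x j c) =
        2 - 2 * (if i = j then 1 else 0 : ℤ) := fun i j => by
      rw [Finset.sum_congr rfl fun c _ =>
        show (x i c - x j c) * (x i c - x j c) = x i c * x i c + x j c * x j c - 2 * (x i c * x j c)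
          by ring, Finset.sum_sub_distrib, Finset.sum_add_distrib, ← Finset.mul_sum, hgram, hgram,
        hgram, if_pos rfl, if_pos rfl]
      ring
    have h2 : ∑ c ∈ S, ∑ i, x i c * x i c = (m : ℤ) * ((e : ℤ) + 1) := by
      rw [Finset.sum_comm, Finset.sum_congr rfl fun i _ => hgram i i]
      simp [hm, mul_add]
    have h3 : ∑ c ∈ S, ∑ i, ∑ j, (x i c - x j c) * (x i c - x j c) =
        2 * (m : ℤ) * m - 2 * m := by
      rw [Finset.sum_comm, Finset.sum_congr rfl fun i _ => Finset.sum_comm,
        Finset.sum_congr rfl fun i _ => Finset.sum_congr rfl fun j _ => h1 i j]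
      simp [hm, Finset.sum_sub_distrib]
      ring
    rw [Finset.sum_add_distrib, ← Finset.mul_sum, h2, h3]
    ring
  have hlow : (S.card : ℤ) * (2 * m) ≤ 2 * (m : ℤ) * ((e : ℤ) + m) := by
    rw [← htot, ← nsmul_eq_mul, ← Finset.sum_const]
    exact Finset.sum_le_sum fun c hc => (row_form _ (hnz c hc)).1
  have hS : S.card = e + m := by
    have : (S.card : ℤ) ≤ (e : ℤ) + m := le_of_mul_le_mul_right
      (by linarith : (S.card : ℤ) * (2 * m) ≤ ((e : ℤ) + m) * (2 * m)) (by omega)
    omega
  have hrow : ∀ c ∈ S, (∃ i, (x i c = 1 ∨ x i c = -1) ∧ ∀ j, j ≠ i → x j c = 0) ∨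
      ∃ s : ℤ, (s = 1 ∨ s = -1) ∧ ∀ i, x i c = s := fun c hc => by
    refine (row_form _ (hnz c hc)).2 ?_
    refine (((Finset.sum_eq_sum_iff_of_le fun c hc => (row_form _ (hnz c hc)).1).1 ?_) c hc).symm
    rw [htot, Finset.sum_const, nsmul_eq_mul, hS]
    push_cast
    ring
  -- the special coordinates
  have key : ∃ (a : ι → κ), Function.Injective a ∧ (∀ i, a i ∈ S) ∧
      (∀ i j, i ≠ j → x i (a j) = 0) ∧ (∀ i, x i (a i) = 1 ∨ x i (a i) = -1) ∧
      ∀ c ∈ S \ Finset.univ.image a, ∃ s : ℤ, (s = 1 ∨ s = -1) ∧ ∀ i, x i c = s := by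
    by_cases h2 : ∀ i j : ι, i = j
    · obtain ⟨i₀⟩ := ‹Nonempty ι›
      obtain ⟨c₀, hc₀⟩ := Finset.card_pos.1 (hS ▸ (by omega) : 0 < S.card)
      have hall : ∀ c ∈ S, ∃ s : ℤ, (s = 1 ∨ s = -1) ∧ ∀ i, x i c = s := fun c hc => by
        rcases hrow c hc with ⟨i, hi, -⟩ | h
        · exact ⟨x i c, hi, fun j => by rw [h2 j i]⟩
        · exact h
      refine ⟨fun _ => c₀, fun i j _ => h2 i j, fun _ => hc₀, fun i j hij => absurd (h2 i j) hij,
        fun i => ?_, fun c hc => hall c (Finset.sdiff_subset hc)⟩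
      obtain ⟨s, hs, hsi⟩ := hall c₀ hc₀
      rw [hsi i]
      exact hs
    · push Not at h2
      obtain ⟨i₁, j₁, hne⟩ := h2
      set C := S.filter fun c => ∀ i, x i c ≠ 0 with hC
      have hCrow : ∀ c ∈ S, c ∉ C → ∃ i, (x i c = 1 ∨ x i c = -1) ∧ ∀ j, j ≠ i → x j c = 0 := by
        intro c hc hcC
        refine (hrow c hc).resolve_right fun ⟨s, hs, hsi⟩ => hcC ?_
        refine Finset.mem_filter.2 ⟨hc, fun i => ?_⟩
        rw [hsi i]
        rcases hs with rfl | rfl <;> decide
      have hCc : ∀ c ∈ C, ∃ s : ℤ, (s = 1 ∨ s = -1) ∧ ∀ i, x i c = s := fun c hc => by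
        obtain ⟨hcS, hc'⟩ := Finset.mem_filter.1 hc
        refine (hrow c hcS).resolve_left fun ⟨i, _, hi⟩ => ?_
        rcases eq_or_ne i i₁ with rfl | h
        · exact hc' j₁ (hi j₁ hne.symm)
        · exact hc' i₁ (hi i₁ h.symm)
      have hoff : ∀ i j, i ≠ j → ∀ c ∈ S, x i c * x j c = if c ∈ C then 1 else 0 :=
        fun i j hij c hc => by
          split_ifs with h
          · obtain ⟨s, hs, hsi⟩ := hCc c h
            rw [hsi i, hsi j]
            rcases hs with rfl | rfl <;> rfl
          · obtain ⟨k, -, hk⟩ := hCrow c hc h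
            rcases eq_or_ne i k with rfl | h'
            · rw [hk j hij.symm, mul_zero]
            · rw [hk i h', zero_mul]
      have hCcard : (C.card : ℤ) = e := by
        have := hgram i₁ j₁
        rw [Finset.sum_congr rfl (hoff i₁ j₁ hne), if_neg hne, add_zero, Finset.sum_ite,
          Finset.sum_const_zero, add_zero, Finset.sum_const, nsmul_eq_mul, mul_one,
          Finset.filter_mem_eq_inter, Finset.inter_eq_right.2 (Finset.filter_subset _ _)] at this
        exact this
      have hCsq : ∀ i, ∀ c ∈ C, x i c * x i c = 1 := fun i c hc => by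
        obtain ⟨s, hs, hsi⟩ := hCc c hc
        rw [hsi i]
        rcases hs with rfl | rfl <;> rfl
      have hsq : ∀ i, ∑ c ∈ S \ C, x i c * x i c = 1 := fun i => by
        have := hgram i i
        rw [if_pos rfl, ← Finset.sum_sdiff (Finset.filter_subset _ S : C ⊆ S),
          Finset.sum_congr rfl (hCsq i), Finset.sum_const, nsmul_eq_mul, mul_one, hCcard] at this
        linarith
      have hex : ∀ i, ∃ c ∈ S \ C, x i c ≠ 0 := fun i => by
        by_contra h
        push Not at h
        have := hsq i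
        rw [Finset.sum_eq_zero fun c hc => by rw [h c hc, mul_zero]] at this
        exact zero_ne_one this
      choose a ha hxa using hex
      have hone : ∀ i, ∀ j, j ≠ i → x j (a i) = 0 := fun i j hj => by
        obtain ⟨k, -, hk⟩ := hCrow _ (Finset.mem_sdiff.1 (ha i)).1 (Finset.mem_sdiff.1 (ha i)).2
        have : k = i := by
          by_contra h
          exact hxa i (hk i fun e => h e.symm)
        exact hk j (this ▸ hj)
      have hinj : Function.Injective a := fun i j h => by
        by_contra hij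
        exact hxa i (h ▸ hone j i hij)
      have himg : Finset.univ.image a = S \ C := by
        refine Finset.eq_of_subset_of_card_le (fun c hc => ?_) ?_
        · obtain ⟨i, -, rfl⟩ := Finset.mem_image.1 hc
          exact ha i
        · rw [Finset.card_image_of_injective _ hinj, Finset.card_univ, Finset.card_sdiff_of_subset
            (Finset.filter_subset _ _), ← hC, hS]
          omega
      refine ⟨a, hinj, fun i => (Finset.mem_sdiff.1 (ha i)).1, fun i j hij => hone j i hij,
        fun i => ?_, fun c hc => ?_⟩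
      · obtain ⟨k, hk, hk'⟩ := hCrow _ (Finset.mem_sdiff.1 (ha i)).1 (Finset.mem_sdiff.1 (ha i)).2
        rcases eq_or_ne i k with rfl | h
        · exact hk
        · exact absurd (hk' i h) (hxa i)
      · rw [himg] at hc
        obtain ⟨hcS, hc'⟩ := Finset.mem_sdiff.1 hc
        exact hCc c (by_contra fun h => hc' (Finset.mem_sdiff.2 ⟨hcS, h⟩))
  obtain ⟨a, hinj, haS, hoff, hdiag, hX⟩ := key
  have hXcard : (S \ Finset.univ.image a).card = e := by
    rw [Finset.card_sdiff_of_subset (fun c hc => by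
      obtain ⟨i, -, rfl⟩ := Finset.mem_image.1 hc
      exact haS i), Finset.card_image_of_injective _ hinj, Finset.card_univ, hS]
    omega
  choose! s hs hsi using hX
  -- the common sign
  set X := S \ Finset.univ.image a
  have hsum : ∀ i, w (a i) * x i (a i) + ∑ c ∈ X, w c * s c = 0 := fun i => by
    have h := horth i
    rw [← Finset.sum_sdiff (show Finset.univ.image a ⊆ S from fun c hc => by
      obtain ⟨j, -, rfl⟩ := Finset.mem_image.1 hc
      exact haS j), Finset.sum_image hinj.injOn, Finset.sum_eq_single i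
        (fun j _ hj => by rw [hoff i j hj.symm, mul_zero])
        (fun h' => absurd (Finset.mem_univ i) h'),
      Finset.sum_congr rfl (g := fun c => w c * s c) fun c hc => by rw [hsi c hc i]] at h
    linarith
  obtain ⟨i₀⟩ := ‹Nonempty ι›
  refine ⟨hS, a, s, x i₀ (a i₀), hinj, haS, hXcard, hdiag i₀,
    fun c hc => ⟨hs c hc, hsi c hc⟩, fun i j => ?_⟩
  split_ifs with h
  · subst h
    have h1 := hsum i
    have h2 := hsum i₀
    have p1 := hw _ (haS i)
    have p2 := hw _ (haS i₀)
    rcases hdiag i with e1 | e1 <;> rcases hdiag i₀ with e2 | e2 <;> rw [e1] at h1 <;>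
      rw [e2] at h2 <;> rw [e1, e2] <;> linarith
  · exact hoff i j h

end Cfsg.Agent.H57.Cyclic
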